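import Cfsg.Agent.H6.G23.C1.D0

set_option autoImplicit false
set_option maxRecDepth 100000
set_option Elab.async false

namespace Cfsg.H6.G23.C1

theorem b0 : allR (blk get gs (gwB gwh 309) gd 38723982254506841524162166546190557925717288088766885807587840) 4 669 = true := by decide +kernel

theorem b1 : allR (blk get gs (gwB gwh 309) gd 38723982254506841524162166546190557925717288088766885807587840) 673 653 = true := by decide +kernel

theorem b2 : allR (blk get gs (gwB gwh 309) gd 38723982254506841524162166546190557925717288088766885807587840) 1326 651 = true := by decide +kernel

theorem b3 : allR (blk get gs (gwB gwh 309) gd 38723982254506841524162166546190557925717288088766885807587840) 1977 672 = true := by decide +kernel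

theorem b4 : allR (blk get gs (gwB gwh 309) gd 38723982254506841524162166546190557925717288088766885807587840) 2649 640 = true := by decide +kernel

theorem b5 : allR (blk get gs (gwB gwh 309) gd 38723982254506841524162166546190557925717288088766885807587840) 3289 553 = true := by decide +kernel

theorem b6 : allR (blk get gs (gwB gwh 309) gd 38723982254506841524162166546190557925717288088766885807587840) 3842 153 = true := by decide +kernel

theorem c0 : allR (clo get gc 7371 255936 116) 0 1562 = true := by decide +kernel

theorem c1 : allR (clo get gc 7371 255936 116) 1562 178 = true := by decide +kernel

end Cfsg.H6.G23.C1
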