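import Cfsg.Agent.H6.Cert
import Cfsg.Agent.H6.G23.Pres
import Cfsg.Agent.H6.G23.C1.B0

set_option autoImplicit false
set_option maxRecDepth 100000
set_option Elab.async false

namespace Cfsg.H6.G23.C1

def sg : List (List ℕ) := [[], [1], [2], [3], [4], [5], [6], [7], [8], [9], [10], [11], [12], [13], [14], [15], [1], [2], [3], [4], [5], [6], [7], [8], [9], [9]]

def BL : List ℕ := [0x210, 0x412, 0x614, 0x816, 0x918, 0xb0b0b, 0xa01050b0d, 0x10405080b090a, 0xf0f0f, 0x20f010e, 0x60f050e, 0x90f090e, 0xd080c0e, 0x2030805090b0204020a, 0x20202, 0x2090209, 0x50705090b070603020a, 0x40404, 0x4090409, 0x30203020f030203020f, 0x6040503, 0x6020501, 0xb08050204020b0805020402, 0x80808, 0x8090809, 0x9050905, 0x201, 0x605, 0x60606, 0x30103020402, 0x10301040204, 0x304, 0x403, 0x506, 0x8020701, 0x70507060806, 0x6090609, 0x8040703, 0x102, 0x909, 0x50705070507040204020402, 0x9030903, 0xb0a, 0x807, 0x4080307, 0x708, 0xa0a0a, 0x50705080608, 0x10301030103080608060806, 0xa0b, 0xf0e, 0x4060305, 0x2060105, 0xd0c, 0xc0d, 0x1030106070a01030106070a, 0xb010405080a09060806,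 0x9010901, 0xb0103010a0906070401, 0xf090e09, 0x30303, 0x9070907, 0xc0a06020b, 0xb090a07060302, 0x10101, 0x70707, 0x2080107, 0x50505, 0xe0f, 0xf060e05, 0xf0d070c, 0x0, 0xf020e01, 0xe010401040e01040104, 0xe0e0e]

def Sub : List (List ℕ) := [[1], [3], [5], [7], [9]]

theorem hA : prepA 18687320815856392053795373060102095360 G23.R sg 38723982254506841524162166546190557925717288088766885807587840 BL Sub get gd = true := by decide +kernel

theorem hw : allR (okW BL gwh) 0 309 = true := by decide +kernel

theorem hb : ∀ b, 4 ≤ b → b < 3995 → blk get gs (gwB gwh 309) gd 38723982254506841524162166546190557925717288088766885807587840 b = true :=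
  (range_join (range_join (allR_range b0 (by norm_num : 4 + 669 = 673)) (range_join (allR_range b1 (by norm_num : 673 + 653 = 1326)) (allR_range b2 (by norm_num : 1326 + 651 = 1977)))) (range_join (range_join (allR_range b3 (by norm_num : 1977 + 672 = 2649)) (allR_range b4 (by norm_num : 2649 + 640 = 3289))) (range_join (allR_range b5 (by norm_num : 3289 + 553 = 3842)) (allR_range b6 (by norm_num : 3842 + 153 = 3995)))))

def X : List (List ℕ) := [[1], [3], [5], [7], [9], [10], [12], [14]]

theorem hC : prepC sg 38723982254506841524162166546190557925717288088766885807587840 X 15 7371 116 = true := by decide +kernel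

theorem hc : ∀ t, 0 ≤ t → t < 15 * 116 → clo get gc 7371 255936 116 t = true :=
  (range_join (allR_range c0 (by norm_num : 0 + 1562 = 1562)) (allR_range c1 (by norm_num : 1562 + 178 = 1740)))

theorem cover {G : Type*} [Group G] {ev : ℕ → G} (hev : Good ev 18687320815856392053795373060102095360) (hR : Rels ev G23.R) :
    Cover (gen ev Sub) (gen ev X) 7371 :=
  cert_cover hev hR hA hC hw hb (by norm_num) hc


end Cfsg.H6.G23.C1
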